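import Cfsg.Agent.Frob.Nested
import Cfsg.Agent.SigF.Trans

set_option autoImplicit false

/-!
A solvable subgroup that is central in all its solvable overgroups is central.
-/

namespace Cfsg.Agent.H27.CS

open Subgroup Cfsg

universe u

/-- `A` is central in every solvable overgroup. -/
def HC {G : Type u} [Group G] (A : Subgroup G) : Prop :=
  ∀ S : Subgroup G, A ≤ S → Group.IsSolvable S → ∀ a ∈ A, ∀ s ∈ S, a * s = s * a

theorem HC.subgroupOf {G : Type u} [Group G] {A : Subgroup G} (h : HC A) {H : Subgroup G}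
    (hAH : A ≤ H) : HC (A.subgroupOf H) := by
  intro S hAS hS a ha s hs
  have h1 : A ≤ S.map H.subtype := by
    intro x hx
    exact ⟨⟨x, hAH hx⟩, hAS (mem_subgroupOf.mpr hx), rfl⟩
  have h2 : Group.IsSolvable (S.map H.subtype) :=
    Group.isSolvable_of_surjective (f := (H.subtype.subgroupMap S))
      (H.subtype.subgroupMap_surjective S)
  have h3 := h _ h1 h2 a (mem_subgroupOf.mp ha) s ⟨s, hs, rfl⟩
  exact Subtype.ext h3

/-- conjugates inherit -/
theorem HC.conj {G : Type u} [Group G] {A : Subgroup G} (h : HC A) (g : G) :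
    HC (A.map (MulAut.conj g).toMonoidHom) := by
  intro S hAS hS a ha s hs
  obtain ⟨b, hb, rfl⟩ := ha
  have h1 : A ≤ S.map (MulAut.conj g⁻¹).toMonoidHom := by
    intro x hx
    exact ⟨_, hAS ⟨x, hx, rfl⟩, by simp [mul_assoc]⟩
  have h2 : Group.IsSolvable (S.map (MulAut.conj g⁻¹).toMonoidHom) :=
    Group.isSolvable_of_surjective (f := ((MulAut.conj g⁻¹).toMonoidHom.subgroupMap S))
      (MonoidHom.subgroupMap_surjective _ S)
  have h3 := h _ h1 h2 b hb _ ⟨s, hs, rfl⟩
  replace h3 : b * (g⁻¹ * s * g⁻¹⁻¹) = g⁻¹ * s * g⁻¹⁻¹ * b := h3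
  rw [inv_inv] at h3
  change g * b * g⁻¹ * s = s * (g * b * g⁻¹)
  have h4 := congrArg (fun t => g * t * g⁻¹) h3
  calc g * b * g⁻¹ * s = g * (b * (g⁻¹ * s * g)) * g⁻¹ := by group
    _ = g * (g⁻¹ * s * g * b) * g⁻¹ := h4
    _ = s * (g * b * g⁻¹) := by group

theorem main (n : ℕ) : ∀ (G : Type u) [Group G] [Finite G], Nat.card G = n →
    ∀ A : Subgroup G, Group.IsSolvable A → HC A → A ≤ center G := by
  induction n using Nat.strong_induction_on with
  | _ n ih =>
  intro G _ _ hn A hA hc
  classical
  by_contra hcon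
  -- `A` is abelian
  have hAA : ∀ a ∈ A, ∀ b ∈ A, a * b = b * a := fun a ha b hb => hc A le_rfl hA a ha b hb
  -- every proper overgroup is contained in the centralizer
  have hov : ∀ H : Subgroup G, A ≤ H → H ≠ ⊤ → H ≤ centralizer (A : Set G) := by
    intro H hAH hH
    have hlt : Nat.card H < n := by
      rw [← hn]
      exact lt_of_le_of_ne (Nat.card_le_card_of_injective _ H.subtype_injective)
        (fun h => hH (eq_top_of_card_eq H h))
    have hs : Group.IsSolvable (A.subgroupOf H) :=
      Group.isSolvable_of_isSolvable_injective (f := (subgroupOfEquivOfLe hAH).toMonoidHom)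
        (subgroupOfEquivOfLe hAH).injective
    have h1 := ih _ hlt H rfl (A.subgroupOf H) hs (hc.subgroupOf hAH)
    intro x hx
    rw [mem_centralizer_iff]
    intro a ha
    have h2 := h1 (mem_subgroupOf.mpr (show ((⟨a, hAH ha⟩ : H) : G) ∈ A from ha))
    have h3 := mem_center_iff.mp h2 ⟨x, hx⟩
    exact (congrArg Subtype.val h3).symm
  set M := centralizer (A : Set G) with hM
  have hAM : A ≤ M := fun a ha => mem_centralizer_iff.mpr (fun b hb => hAA b hb a ha)
  have hMtop : M ≠ ⊤ := by
    intro h
    apply hcon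
    intro a ha
    rw [mem_center_iff]
    intro g
    have : g ∈ M := by rw [h]; trivial
    exact (mem_centralizer_iff.mp this a ha).symm
  -- conjugation
  have hconjM : ∀ g x : G, x ∈ M.map (MulAut.conj g).toMonoidHom ↔ g⁻¹ * x * g ∈ M := by
    intro g x
    constructor
    · rintro ⟨y, hy, rfl⟩
      simpa [mul_assoc] using hy
    · intro h
      exact ⟨_, h, by simp [mul_assoc]⟩
  have hconjA : ∀ g x : G, x ∈ A.map (MulAut.conj g).toMonoidHom ↔ g⁻¹ * x * g ∈ A := by
    intro g x
    constructor
    · rintro ⟨y, hy, rfl⟩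
      simpa [mul_assoc] using hy
    · intro h
      exact ⟨_, h, by simp [mul_assoc]⟩
  have hov' : ∀ (g : G) (H : Subgroup G), A.map (MulAut.conj g).toMonoidHom ≤ H → H ≠ ⊤ →
      H ≤ M.map (MulAut.conj g).toMonoidHom := by
    intro g H hAH hH x hx
    rw [hconjM]
    have h1 : A ≤ H.map (MulAut.conj g⁻¹).toMonoidHom := by
      intro a ha
      exact ⟨_, hAH ⟨a, ha, rfl⟩, by simp [mul_assoc]⟩
    have h2 : H.map (MulAut.conj g⁻¹).toMonoidHom ≠ ⊤ := by
      intro h
      apply hH
      rw [eq_top_iff]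
      intro y _
      have : g⁻¹ * y * g ∈ H.map (MulAut.conj g⁻¹).toMonoidHom := by rw [h]; trivial
      obtain ⟨z, hz, hz2⟩ := this
      have : z = y := by simpa using hz2
      rwa [← this]
    exact hov _ h1 h2 ⟨x, hx, by simp [mul_assoc]⟩
  -- normal abelian subgroup containing `A`
  have hnorm : ¬ M.Normal := by
    intro hMn
    apply hcon
    let N : Subgroup G := M ⊓ centralizer (M : Set G)
    have hNn : N.Normal := by
      have : (centralizer (M : Set G)).Normal := inferInstance
      infer_instance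
    have hAN : A ≤ N := le_inf hAM (fun a ha => mem_centralizer_iff.mpr
      (fun m hm => (mem_centralizer_iff.mp hm a ha).symm))
    have hNs : Group.IsSolvable N :=
      Group.isSolvable_of_comm (fun a b => Subtype.ext
        (mem_centralizer_iff.mp b.2.2 a a.2.1))
    intro a ha
    rw [mem_center_iff]
    intro g
    have h1 : Group.IsSolvable (zpowers g) := by
      exact Group.isSolvable_of_comm (fun a b => by
        obtain ⟨a, i, rfl⟩ := a; obtain ⟨b, j, rfl⟩ := b
        apply Subtype.ext; simp only [Subgroup.coe_mul]; rw [← zpow_add, ← zpow_add, add_comm])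
    have h2 : Group.IsSolvable (N ⊔ zpowers g : Subgroup G) :=
      SigF.solvable_sup hNs h1 (by rw [normalizer_eq_top]; exact le_top)
    exact (hc _ (hAN.trans le_sup_left) h2 a ha g (mem_sup_right (mem_zpowers g))).symm
  -- the key property
  have hkey : ∀ g y : G, y ∈ M → y ∉ center G → g * y * g⁻¹ ∈ M → g ∈ M := by
    intro g y hy hyZ hgy
    set z := g * y * g⁻¹ with hz
    have hCtop : centralizer ({z} : Set G) ≠ ⊤ := by
      intro h
      apply hyZ
      rw [mem_center_iff]
      intro x
      have : g * x * g⁻¹ ∈ centralizer ({z} : Set G) := by rw [h]; trivial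
      rw [mem_centralizer_singleton_iff] at this
      have h2 := congrArg (fun t => g⁻¹ * t * g) this
      simp only [hz] at h2
      have e1 : g⁻¹ * (g * x * g⁻¹ * (g * y * g⁻¹)) * g = x * y := by group
      have e2 : g⁻¹ * (g * y * g⁻¹ * (g * x * g⁻¹)) * g = y * x := by group
      rw [e1, e2] at h2
      exact h2
    have hAC : A ≤ centralizer ({z} : Set G) := by
      intro a ha
      rw [mem_centralizer_singleton_iff]
      exact mem_centralizer_iff.mp hgy a ha
    have hAC' : A.map (MulAut.conj g).toMonoidHom ≤ centralizer ({z} : Set G) := by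
      rintro _ ⟨a, ha, rfl⟩
      rw [mem_centralizer_singleton_iff]
      have := mem_centralizer_iff.mp hy a ha
      simp only [MulEquiv.coe_toMonoidHom, MulAut.conj_apply, hz]
      calc g * a * g⁻¹ * (g * y * g⁻¹) = g * (a * y) * g⁻¹ := by group
        _ = g * (y * a) * g⁻¹ := by rw [this]
        _ = g * y * g⁻¹ * (g * a * g⁻¹) := by group
    have h1 := hov _ hAC hCtop
    have h2 := hov' g M (hAC'.trans h1) hMtop
    -- `M ≤ M^g`, so equal
    have h3 : M = M.map (MulAut.conj g).toMonoidHom := by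
      apply Subgroup.eq_of_le_of_card_ge h2
      exact Nat.card_le_card_of_surjective _ (MonoidHom.subgroupMap_surjective _ M)
    have h4 : g ∈ normalizer (M : Set G) := by
      rw [mem_normalizer_iff]
      intro x
      have h5 := hconjM g (g * x * g⁻¹)
      rw [← h3] at h5
      rw [show g⁻¹ * (g * x * g⁻¹) * g = x by group] at h5
      exact h5.symm
    by_cases hNt : normalizer (M : Set G) = ⊤
    · exact absurd (normalizer_eq_top_iff.mp hNt) hnorm
    · exact hov _ (hAM.trans le_normalizer) hNt h4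
  -- the Frobenius group `G / Z(G)`
  set π := QuotientGroup.mk' (center G) with hπ
  set M' := M.map π with hM'
  have hZM : center G ≤ M := center_le_centralizer _
  have hmem : ∀ x, π x ∈ M' ↔ x ∈ M := by
    intro x
    constructor
    · rintro ⟨y, hy, hxy⟩
      rw [hπ, QuotientGroup.mk'_eq_mk'] at hxy
      obtain ⟨z, hz, rfl⟩ := hxy
      exact M.mul_mem hy (hZM hz)
    · intro hx
      exact mem_map_of_mem _ hx
  have hF : IsFrobeniusComplement M' := by
    rw [Frob.isFrobeniusComplement_iff]
    refine ⟨?_, ?_, ?_⟩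
    · intro h
      apply hcon
      intro a ha
      have h1 : π a ∈ M' := mem_map_of_mem _ (hAM ha)
      rw [h, mem_bot] at h1
      exact (QuotientGroup.eq_one_iff a).mp h1
    · intro h
      apply hMtop
      rw [eq_top_iff]
      intro x _
      rw [← hmem, h]
      trivial
    · intro g h hh h1 hg
      obtain ⟨g, rfl⟩ := QuotientGroup.mk'_surjective _ g
      obtain ⟨y, rfl⟩ := QuotientGroup.mk'_surjective _ h
      rw [hmem]
      refine hkey g y ((hmem y).mp hh) (fun hy => h1 ((QuotientGroup.eq_one_iff y).mpr hy)) ?_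
      rw [← hmem, map_mul, map_mul, map_inv]
      exact hg
  obtain ⟨K, hKs, hKn, hKM⟩ := Frob.exists_normal_complement hF
  have hKb : K ≠ ⊥ := by
    rintro rfl
    rw [Subgroup.isComplement'_bot_left] at hKM
    exact hF.2.1 hKM
  have hKc : Nat.card K ≠ 1 := fun h => hKb (Subgroup.card_eq_one.mp h)
  obtain ⟨r, hr, hrK⟩ := Nat.exists_prime_and_dvd hKc
  have : Fact r.Prime := ⟨hr⟩
  have hcop : (Nat.card M').Coprime (Nat.card K) := by
    have h1 := Frob.coprime_card_index hF
    rwa [← hKM.index_eq_card]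
  obtain ⟨H₁, W, hc₁, hWK, hWb, hWp, hWab, hn₁⟩ :=
    Frob.exists_complement_normalizing_abelian hKM hcop r hrK
  have hfpf := (Frob.isFrobeniusComplement_iff_fpf hKM hKb hF.1).mp hF
  have hH₁b : H₁ ≠ ⊥ := by
    rintro rfl
    rw [Subgroup.isComplement'_bot_right] at hc₁
    rw [hc₁] at hKM
    rw [Subgroup.isComplement'_top_left] at hKM
    exact hF.1 hKM
  have hF₁ : IsFrobeniusComplement H₁ := (Frob.isFrobeniusComplement_iff_fpf hc₁ hKb hH₁b).mpr
    (Frob.fpf_of_isComplement' hKM hKb hF.1 hfpf hc₁)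
  obtain ⟨g, hg⟩ := Frob.exists_conj_eq hF hF₁
  -- the conjugate of `W`
  set W' : Subgroup (G ⧸ center G) := W.map (MulAut.conj g).toMonoidHom with hW'
  have hW'mem : ∀ x, x ∈ W' ↔ g⁻¹ * x * g ∈ W := by
    intro x
    constructor
    · rintro ⟨y, hy, rfl⟩
      simpa [mul_assoc] using hy
    · intro h
      exact ⟨_, h, by simp [mul_assoc]⟩
  have hMW : ∀ m ∈ M', ∀ w ∈ W', m * w * m⁻¹ ∈ W' := by
    intro m hm w hw
    rw [← hg, Frob.mem_conj_smul] at hm
    rw [hW'mem] at hw ⊢
    have h1 := (mem_normalizer_iff.mp (hn₁ hm) _).mp hw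
    have e : g⁻¹ * m * g * (g⁻¹ * w * g) * (g⁻¹ * m * g)⁻¹ = g⁻¹ * (m * w * m⁻¹) * g := by group
    rwa [e] at h1
  have hW'K : W' ≤ K := by
    rintro _ ⟨y, hy, rfl⟩
    exact hKn.conj_mem y (hWK hy) g
  have hW'b : W' ≠ ⊥ := by
    intro h
    rw [hW', map_eq_bot_iff_of_injective] at h
    · exact hWb h
    · exact (MulAut.conj g).injective
  -- the preimage
  set V := W'.comap π with hV
  have hVs : Group.IsSolvable V := by
    have : Group.IsSolvable W := Group.isSolvable_of_comm (fun a b => mul_comm' a b)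
    have : Group.IsSolvable W' := Group.isSolvable_of_surjective
      (f := ((MulAut.conj g).toMonoidHom.subgroupMap W)) (MonoidHom.subgroupMap_surjective _ W)
    have hle : center G ≤ V := by
      intro z hz
      rw [hV, mem_comap]
      have : π z = 1 := (QuotientGroup.eq_one_iff z).mpr hz
      rw [this]
      exact one_mem _
    have : Group.IsSolvable (center G) := Group.isSolvable_of_comm (fun a b => Subtype.ext
      ((mem_center_iff.mp b.2 a)))
    refine Group.isSolvable_of_ker_le_range (f := inclusion hle) (g := π.subgroupComap W') ?_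
    intro x hx
    have h1 : π x = 1 := congrArg Subtype.val (MonoidHom.mem_ker.mp hx)
    exact ⟨⟨x, (QuotientGroup.eq_one_iff (x : G)).mp h1⟩, rfl⟩
  have hAV : A ≤ normalizer (V : Set G) := by
    rw [le_normalizer_iff]
    intro a ha v hv
    rw [hV, mem_comap] at hv ⊢
    have h1 := hMW (π a) (mem_map_of_mem _ (hAM ha)) (π v) hv
    simpa using h1
  have hSs : Group.IsSolvable (V ⊔ A : Subgroup G) := SigF.solvable_sup hVs hA hAV
  have hVM : V ≤ M := by
    intro v hv
    rw [mem_centralizer_iff]
    intro a ha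
    exact hc _ le_sup_right hSs a ha v (mem_sup_left hv)
  apply hW'b
  rw [eq_bot_iff]
  intro w hw
  obtain ⟨v, rfl⟩ := QuotientGroup.mk'_surjective _ w
  have h1 : π v ∈ M' := mem_map_of_mem _ (hVM hw)
  exact Subgroup.disjoint_def.mp hKM.disjoint (hW'K hw) h1 ▸ one_mem _

end Cfsg.Agent.H27.CS
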