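import Cfsg.Agent.H71.MtExt

/-!
# S4351 (Martineau), piece P8a: equivariant lifts of the coordinates (owner: helper27)
-/

set_option autoImplicit false

namespace Cfsg.Agent.H27.MtP8a

open Cfsg.Agent.H71.Mt

universe v

variable {X : Type*} [Group X] [Finite X] {F : Type} [Field F] [Fintype F] {θ : F ≃+* F} {S E K : Subgroup X}
  {w s0 : X} {a b κ : X → F}

theorem exists_add_section {R L : Type*} [AddCommGroup R] [AddCommGroup L] [Module (ZMod 2) R] [Module (ZMod 2) L]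
    (π : R →+ L) (hπ : Function.Surjective π) : ∃ σ : L →+ R, ∀ l, π (σ l) = l := by
  obtain ⟨g, hg⟩ := (π.toZModLinearMap 2).exists_rightInverse_of_surjective (LinearMap.range_eq_top.2 hπ)
  exact ⟨g.toAddMonoidHom, fun l => congrArg (fun f : L →ₗ[ZMod 2] L => f l) hg⟩

theorem exists_add_section' {R L : Type*} [AddCommGroup R] [AddCommGroup L] (hR : ∀ r : R, r + r = 0)
    (hL : ∀ l : L, l + l = 0) (π : R →+ L) (hπ : Function.Surjective π) : ∃ σ : L →+ R, ∀ l, π (σ l) = l := by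
  have h1 : Nonempty (Module (ZMod 2) R) := ⟨AddCommGroup.zmodModule (n := 2) fun x => by rw [two_nsmul, hR]⟩
  have h2 : Nonempty (Module (ZMod 2) L) := ⟨AddCommGroup.zmodModule (n := 2) fun x => by rw [two_nsmul, hL]⟩
  obtain ⟨h1⟩ := h1
  obtain ⟨h2⟩ := h2
  exact exists_add_section π hπ

omit [Finite X] in
theorem odd_card_K (D : SzD θ S E K w s0 a b κ) : Odd (Nat.card K) := by
  have hone : κ 1 = 1 := by
    have h1 := D.κ_mul 1 (one_mem K) 1 (one_mem K)
    rw [one_mul] at h1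
    exact (mul_eq_left₀ (D.κ_ne 1 (one_mem K))).1 h1.symm
  have hinj : ∀ k ∈ K, ∀ l ∈ K, κ k = κ l → k = l := by
    intro k hk l hl h
    have h1 : κ (k * l⁻¹) = 1 := by
      rw [D.κ_mul k hk _ (inv_mem hl), h, ← D.κ_mul l hl _ (inv_mem hl), mul_inv_cancel, hone]
    exact mul_inv_eq_one.1 (D.κ_one _ (mul_mem hk (inv_mem hl)) h1)
  let f : K → Fˣ := fun k => Units.mk0 (κ k) (D.κ_ne k k.2)
  have hf : Function.Bijective f := by
    constructor
    · intro k l h
      exact Subtype.ext (hinj k k.2 l l.2 (congrArg Units.val h))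
    · intro x
      obtain ⟨k, hk, h⟩ := D.κ_surj x x.ne_zero
      exact ⟨⟨k, hk⟩, Units.ext h⟩
  have h1 : Nat.card K = Nat.card Fˣ := Nat.card_congr (Equiv.ofBijective f hf)
  have h2 : Nat.card Fˣ = Fintype.card F - 1 := by
    rw [Nat.card_units, Nat.card_eq_fintype_card]
  have hc : CharP F 2 := D.char
  have h3 : Even (Fintype.card F) := by
    have h4 : (2 : ℕ) ∣ Fintype.card F := by
      obtain ⟨n, hn, h5⟩ := FiniteField.card F 2
      rw [h5]
      exact dvd_pow_self 2 n.ne_zero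
    exact even_iff_two_dvd.2 h4
  rw [h1, h2]
  have h4 := D.card
  exact Nat.Even.sub_odd (by omega) h3 odd_one

theorem exists_section (D : SzD θ S E K w s0 a b κ) {R L : Type v} [AddCommGroup R] [AddCommGroup L]
    [Module F L] (h2 : ∀ r : R, r + r = 0)
    (ρR : X →* AddMonoid.End R) (ρL : Representation F X L) (π : R →+ L) (hπ : Function.Surjective π)
    (hπg : ∀ g r, π (ρR g r) = ρL g (π r)) :
    ∃ σ : L →+ R, (∀ l, π (σ l) = l) ∧ ∀ k ∈ K, ∀ l, ρR k (σ l) = σ (ρL k l) := by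
  have hL : ∀ l : L, l + l = 0 := by
    intro l
    obtain ⟨r, rfl⟩ := hπ l
    rw [← map_add, h2, map_zero]
  obtain ⟨σ₀, h0⟩ := exists_add_section' h2 hL π hπ
  have : Fintype K := Fintype.ofFinite K
  let σ : L →+ R := ∑ k : K, (ρR (k : X)).comp (σ₀.comp (ρL (k : X)⁻¹).toAddMonoidHom)
  have hσ : ∀ l, σ l = ∑ k : K, ρR (k : X) (σ₀ (ρL (k : X)⁻¹ l)) := by
    intro l
    show (∑ k : K, (ρR (k : X)).comp (σ₀.comp (ρL (k : X)⁻¹).toAddMonoidHom)) l = _
    rw [AddMonoidHom.finsetSum_apply]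
    rfl
  refine ⟨σ, ?_, ?_⟩
  · intro l
    rw [hσ, map_sum]
    have h3 : ∀ k : K, π (ρR (k : X) (σ₀ (ρL (k : X)⁻¹ l))) = l := by
      intro k
      rw [hπg, h0]
      have h4 : ρL ((k : X) * (k : X)⁻¹) l = ρL (k : X) (ρL (k : X)⁻¹ l) := by rw [map_mul]; rfl
      rw [← h4, mul_inv_cancel, map_one]
      rfl
    rw [Finset.sum_congr rfl fun k _ => h3 k, Finset.sum_const, Finset.card_univ, ← Nat.card_eq_fintype_card]
    obtain ⟨m, hm⟩ := odd_card_K D
    rw [hm, add_nsmul, one_nsmul, mul_comm, mul_nsmul, two_nsmul, hL, zero_add]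
  · intro m hm l
    rw [hσ, hσ, map_sum]
    refine Fintype.sum_equiv (Equiv.mulLeft (⟨m, hm⟩ : K)) _ _ fun k => ?_
    show ρR m (ρR (k : X) (σ₀ (ρL (k : X)⁻¹ l))) = ρR (m * k) (σ₀ (ρL (m * k)⁻¹ (ρL m l)))
    have h3 : ρL (m * k : X)⁻¹ (ρL m l) = ρL (k : X)⁻¹ l := by
      have h4 : ρL ((m * k : X)⁻¹ * m) l = ρL (m * k : X)⁻¹ (ρL m l) := by rw [map_mul]; rfl
      rw [← h4]
      congr 2
      group
    rw [h3, mul_apply]

/-- [P8a] -/
theorem ext_lifts (D : SzD θ S E K w s0 a b κ) {R L W : Type v} [AddCommGroup R] [Finite R] [AddCommGroup L] [Finite L]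
    [AddCommGroup W] [Finite W] [Module F L] [Module F W] (h2 : ∀ r : R, r + r = 0)
    (ρR : X →* AddMonoid.End R) (ρL : Representation F X L) (ρW : Representation F X W)
    {l1 l2 l3 l4 : L} (NL : Nat4 θ S E K w a b κ (RingEquiv.refl F) ρL l1 l2 l3 l4)
    (i : W →+ R) (π : R →+ L) (hi : Function.Injective i) (hπ : Function.Surjective π)
    (hex : ∀ r : R, π r = 0 ↔ ∃ y : W, i y = r)
    (hig : ∀ g y, ρR g (i y) = i (ρW g y)) (hπg : ∀ g r, π (ρR g r) = ρL g (π r)) :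
    ∃ r1 r2 r3 r4 : F →+ R, ExtD θ S E K a b κ ρR ρW i r1 r2 r3 r4 ∧ ∀ x, π (r1 x) = x • l1 := by
  obtain ⟨σ, h0, hK⟩ := exists_section D h2 ρR ρL π hπ hπg
  have key : ∀ r r' : R, π r = π r' → ∃ y : W, r = r' + i y := by
    intro r r' h
    have h1 : π (r - r') = 0 := by rw [map_sub, h, sub_self]
    obtain ⟨y, hy⟩ := (hex _).1 h1
    exact ⟨y, by rw [hy, add_sub_cancel]⟩
  let R' : L → (F →+ R) := fun l => σ.comp ((smulAddHom F L).flip l)
  have hR' : ∀ l x, R' l x = σ (x • l) := fun _ _ => rfl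
  have hπR : ∀ l x, π (R' l x) = x • l := fun l x => h0 _
  have hπR' : ∀ g l x, π (ρR g (R' l x)) = x • ρL g l := by
    intro g l x
    rw [hπg, hπR, map_smul]
  refine ⟨R' l1, R' l2, R' l3, R' l4, ⟨h2, hi, hig, ?_, ?_, ?_, ?_, ?_, ?_, ?_, ?_, ?_, ?_⟩, hπR l1⟩
  · intro s hs x
    apply key
    rw [hπR', hπR, NL.s1 s hs]
  · intro s hs x
    apply key
    rw [hπR', map_add, hπR, hπR, NL.s2 s hs, smul_add, RingEquiv.refl_apply, smul_smul, mul_comm]
  · intro s hs
    obtain ⟨e, he⟩ := NL.s3 s hs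
    refine ⟨e, fun x => ?_⟩
    apply key
    rw [hπR', map_add, map_add, hπR, hπR, hπR, he, smul_add, smul_add, RingEquiv.refl_apply, smul_smul, smul_smul,
      mul_comm x, mul_comm x]
  · intro s hs
    obtain ⟨f, g, hfg⟩ := NL.s4 s hs
    refine ⟨f, g, fun x => ?_⟩
    apply key
    rw [hπR', map_add, map_add, map_add, hπR, hπR, hπR, hπR, hfg, smul_add, smul_add, smul_add, RingEquiv.refl_apply,
      smul_smul, smul_smul, smul_smul, mul_comm x, mul_comm x, mul_comm x]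
  · intro t ht x
    apply key
    rw [hπR', map_add, hπR, hπR, NL.e3 t ht, smul_add, RingEquiv.refl_apply, smul_smul, mul_comm]
  · intro t ht x
    apply key
    rw [hπR', map_add, map_add, hπR, hπR, hπR, NL.e4 t ht, smul_add, smul_add, RingEquiv.refl_apply,
      RingEquiv.refl_apply, smul_smul, smul_smul, mul_comm x, mul_comm x]
  · intro k hk x
    rw [hR', hK k hk, map_smul, NL.k1 k hk, RingEquiv.refl_apply, smul_smul, mul_comm x]
    rfl
  · intro k hk x
    rw [hR', hK k hk, map_smul, NL.k2 k hk, RingEquiv.refl_apply, smul_smul, mul_comm x]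
    rfl
  · intro k hk x
    rw [hR', hK k hk, map_smul, NL.k3 k hk, RingEquiv.refl_apply, smul_smul, mul_comm x]
    rfl
  · intro k hk x
    rw [hR', hK k hk, map_smul, NL.k4 k hk, RingEquiv.refl_apply, smul_smul, mul_comm x]
    rfl

end Cfsg.Agent.H27.MtP8a
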