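import Cfsg.Agent.H27.SB9
import Cfsg.Agent.BS.Base

/-!
# The Bender-Suzuki input
-/

set_option autoImplicit false

namespace Cfsg.Agent.H27.SB

open Subgroup

universe u

theorem bsHyp : BSHyp.{u} := by
  intro Q _ _ H hH ⟨a, b, ha, hb, hab, hne⟩
  have hO : Cfsg.pPrimeCore 2 Q ≤ H := by
    by_contra hO
    exact hne (H23.Bend.invol_eq_of_commute hH hO ha hb hab)
  obtain ⟨-, h2, -⟩ := H23.Bend.main hH (BS.num_hyp _) hO
  obtain ⟨S, hS⟩ := H23.Bend.exists_sylow_le hH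
  exact ⟨S, hS, h2 S⟩

end Cfsg.Agent.H27.SB
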